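import Cfsg.Agent.H622.KW.Num

/-!
# Numbers for the rows `G₂(q)`, `³D₄(q)` of S4243 (helper140)

`q = a + 1`, `Φ₃ = a² + 3 a + 3`, `Φ₆ = a² + a + 1`, `q² - 1 = a (a + 2)`.
-/

set_option autoImplicit false

namespace Cfsg.Agent.H140.KW

open Cfsg.Agent.H622.KW

theorem q2 (a : ℕ) : (a + 1) ^ 2 - 1 = a * (a + 2) := Nat.sub_eq_of_eq_add (by ring)

theorem q6 (a : ℕ) : (a + 1) ^ 6 - 1 = a * (a + 2) * ((a ^ 2 + 3 * a + 3) * (a ^ 2 + a + 1)) :=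
  Nat.sub_eq_of_eq_add (by ring)

/-- `Φ₃ Φ₆` is not divisible by 9 -/
theorem not_nine (a : ℕ) : ¬ 9 ∣ (a ^ 2 + 3 * a + 3) * (a ^ 2 + a + 1) := by
  intro h
  have h1 := (ZMod.natCast_eq_zero_iff _ 9).2 h
  push_cast at h1
  revert h1
  generalize (a : ZMod 9) = x
  revert x
  decide

/-- `Φ₃ Φ₆` without its factor 3 -/
theorem exists_third (a : ℕ) : ∃ N, N ∣ (a ^ 2 + 3 * a + 3) * (a ^ 2 + a + 1) ∧ ¬ 3 ∣ N ∧
    (a ^ 2 + 3 * a + 3) * (a ^ 2 + a + 1) ≤ 3 * N := by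
  by_cases h : 3 ∣ (a ^ 2 + 3 * a + 3) * (a ^ 2 + a + 1)
  · obtain ⟨N, hN⟩ := h
    refine ⟨N, ⟨3, by rw [hN, mul_comm]⟩, ?_, hN.le⟩
    rintro ⟨k, rfl⟩
    exact not_nine a ⟨k, by rw [hN]; ring⟩
  · exact ⟨_, dvd_rfl, h, by omega⟩

/-- the `s`-part of `q² - 1`, `s` odd -/
theorem sp_q2 {s a : ℕ} (hs : s.Prime) (hs2 : s ≠ 2) (ha : a ≠ 0) : sp s (a * (a + 2)) ≤ a + 2 := by
  rw [sp_mul ha (by omega)]
  by_cases h : s ∣ a
  · have h2 : ¬ s ∣ a + 2 := fun h3 => by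
      have h4 : s ∣ 2 := (Nat.dvd_add_right h).1 h3
      exact hs2 ((Nat.prime_dvd_prime_iff_eq hs Nat.prime_two).1 h4)
    rw [sp_eq_one h2, mul_one]
    exact (sp_le ha).trans (by omega)
  · rw [sp_eq_one h, one_mul]
    exact sp_le (by omega)

/-- the 3-part of `Φ₃ Φ₆` is 3 -/
theorem sp_three {a : ℕ} (h : (a + 1) % 3 ≠ 0) : sp 3 ((a ^ 2 + 3 * a + 3) * (a ^ 2 + a + 1)) = 3 := by
  have h1 : 3 ∣ (a ^ 2 + 3 * a + 3) * (a ^ 2 + a + 1) := by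
    have h2 : a % 3 = 0 ∨ a % 3 = 1 := by omega
    apply Nat.dvd_of_mod_eq_zero
    rcases h2 with h2 | h2 <;> simp [Nat.mul_mod, Nat.add_mod, Nat.pow_mod, h2]
  have h0 : (a ^ 2 + 3 * a + 3) * (a ^ 2 + a + 1) ≠ 0 := by positivity
  have h2 := not_nine a
  unfold sp
  have h3 : ((a ^ 2 + 3 * a + 3) * (a ^ 2 + a + 1)).factorization 3 = 1 := by
    apply le_antisymm
    · by_contra hc
      exact h2 ((Nat.prime_three.pow_dvd_iff_le_factorization (k := 2) h0).2 (by omega))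
    · exact (Nat.prime_three.dvd_iff_one_le_factorization h0).1 h1
  rw [h3, pow_one]

/-- a proper prime-power part of an odd number -/
theorem sp_le_third {s n : ℕ} (hs : s.Prime) (hn : n % 2 = 1) (h : ∀ k, n ≠ s ^ k) : 3 * sp s n ≤ n := by
  obtain ⟨c, hc⟩ := sp_dvd s n
  have hpos : 0 < sp s n := sp_pos hs n
  have h0 : c ≠ 0 := by
    rintro rfl
    rw [mul_zero] at hc
    omega
  have h1 : c ≠ 1 := by
    rintro rfl
    rw [mul_one] at hc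
    exact h _ hc
  have h2 : c ≠ 2 := by
    rintro rfl
    omega
  calc 3 * sp s n ≤ c * sp s n := Nat.mul_le_mul_right _ (by omega)
    _ = n := by rw [mul_comm, ← hc]

end Cfsg.Agent.H140.KW
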